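import Cfsg.Agent.H793.RIM.L34A

/-!
# S5917: the centralizer of a Sylow `3`-subgroup of `PSL(3,4)` in an almost simple group (helper20)

* `card_index_dvd` : `S` normal in `H`, `C_H(S) = 1`, `|Out S| = 12`: `|H : S|` divides `12`;
* `card_cent_dvd` : if moreover `S` has the facts `B34` of `PSL(3,4)` and `E ≤ S` has order `9`, then `|C_H(E)|` divides `108`;
* `not_dvd_cent` : so no subgroup of order `16` or `81` centralises `E`.
-/

set_option autoImplicit false
set_option linter.unusedSectionVars false

namespace Cfsg.Agent.H20.LF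

open Subgroup Cfsg.Agent.H793.RIM

universe u

variable {H : Type u} [Group H] [Finite H]

/-- `|H : S|` divides `|Out S|` -/
theorem card_index_dvd (S : Subgroup H) [S.Normal] (hC : centralizer (S : Set H) = ⊥) :
    S.index ∣ (MulAut.conj : S →* MulAut S).range.index := by
  -- the action of `H` on `S`
  let f : H →* MulAut S := MulAut.conjNormal
  have hf : Function.Injective f := by
    rw [injective_iff_map_eq_one]
    intro h hh
    have h1 : h ∈ centralizer (S : Set H) := by
      rw [mem_centralizer_iff]
      intro s hs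
      have h2 : f h ⟨s, hs⟩ = ⟨s, hs⟩ := by rw [hh]; rfl
      have h3 : h * s * h⁻¹ = s := by
        have := congrArg Subtype.val h2
        rwa [MulAut.conjNormal_apply] at this
      rw [mul_inv_eq_iff_eq_mul] at h3
      exact h3.symm
    rw [hC] at h1
    exact h1
  have hS : S.map f = (MulAut.conj : S →* MulAut S).range := by
    ext φ
    constructor
    · rintro ⟨s, hs, rfl⟩
      refine ⟨⟨s, hs⟩, ?_⟩
      ext x
      simp [f, MulAut.conjNormal_apply]
    · rintro ⟨s, rfl⟩
      refine ⟨s, s.2, ?_⟩
      ext x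
      simp [f, MulAut.conjNormal_apply]
  have h1 : (S.map f).relIndex f.range = S.index := by
    have h2 := Subgroup.relIndex_map_map_of_injective (f := f) S ⊤ hf
    rw [← MonoidHom.range_eq_map] at h2
    rw [h2, Subgroup.relIndex_top_right]
  rw [← h1, hS]
  exact Subgroup.relIndex_dvd_index_of_le (by rw [← hS]; exact Subgroup.map_le_range f S)

/-- `|C_H(E)|` divides `108` -/
theorem card_cent_dvd (S : Subgroup H) [S.Normal] (hS : B34 S) (hC : centralizer (S : Set H) = ⊥)
    (hI : (MulAut.conj : S →* MulAut S).range.index = 12) {E : Subgroup H} (hE : E ≤ S) (hc : Nat.card E = 9) :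
    Nat.card (centralizer (E : Set H)) ∣ 108 := by
  set C : Subgroup H := centralizer (E : Set H) with hCdef
  have h1 := card_index_dvd S hC
  rw [hI] at h1
  -- `C ⊓ S = E`
  have hcE : Nat.card (E.subgroupOf S) = 3 ^ 2 := by
    rw [Nat.card_congr (Subgroup.subgroupOfEquivOfLe hE).toEquiv, hc]
    norm_num
  have hCS : C ⊓ S ≤ E := by
    rintro c ⟨hc1, hc2⟩
    obtain ⟨x, hx, hx1⟩ : ∃ x ∈ E.subgroupOf S, x ≠ 1 := by
      by_contra hcon
      push Not at hcon
      have : E.subgroupOf S = ⊥ := (Subgroup.eq_bot_iff_forall _).2 hcon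
      rw [this] at hcE
      simp at hcE
    have h2 := hS.cent_eq Nat.prime_three hcE (by right; right; exact ⟨rfl, rfl⟩) hx hx1
    have h3 : (⟨c, hc2⟩ : S) ∈ centralizer ({x} : Set S) := by
      rw [mem_centralizer_singleton_iff]
      apply Subtype.ext
      exact ((mem_centralizer_iff.1 hc1) (x : H) hx).symm
    rw [h2] at h3
    exact h3
  have h2 : Nat.card ↥(C ⊓ S) ∣ 9 := by
    rw [← hc]
    exact Subgroup.card_dvd_of_le hCS
  have h3 : Nat.card C = Nat.card ↥(C ⊓ S) * S.relIndex C := by
    have h4 := Subgroup.card_mul_index (S.subgroupOf C)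
    rw [← h4, Subgroup.relIndex]
    congr 1
    rw [Nat.card_congr (Subgroup.subgroupOfEquivOfLe (show C ⊓ S ≤ C from inf_le_left)).toEquiv.symm]
    rw [Subgroup.inf_subgroupOf_left]
  have h4 : S.relIndex C ∣ 12 := (Subgroup.relIndex_dvd_index_of_normal S C).trans h1
  rw [h3]
  exact (Nat.mul_dvd_mul h2 h4).trans (by norm_num)

/-- no subgroup of order `16` or `81` centralises `E` -/
theorem not_dvd_cent (S : Subgroup H) [S.Normal] (hS : B34 S) (hC : centralizer (S : Set H) = ⊥)
    (hI : (MulAut.conj : S →* MulAut S).range.index = 12) {E : Subgroup H} (hE : E ≤ S) (hc : Nat.card E = 9) :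
    ¬ 8 ∣ Nat.card (centralizer (E : Set H)) ∧ ¬ 81 ∣ Nat.card (centralizer (E : Set H)) := by
  have h := card_cent_dvd S hS hC hI hE hc
  constructor
  · intro h1
    have h2 := h1.trans h
    revert h2
    decide
  · intro h1
    have h2 := h1.trans h
    revert h2
    decide

end Cfsg.Agent.H20.LF
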