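import Cfsg.Agent.H793.RIM.L34A

/-!
# S5917: the normalizer of a Sylow `3`-subgroup of `PSL(3,4)` (helper20)

For `S` with the facts `B34` of `PSL(3,4)` and `E ≤ S` of order `9`:

* `exp_three`, `exists_Q` : `x ^ 3 = 1` on `E`; there is `Q ≤ N_S(E)` of order `8` acting regularly on `E # `;
* `exists_z` : the involution `z` of `Q` inverts `E`;
* `exists_Q8` : for any two generators `e1`, `e2` of `E` there are `i`, `j` in `Q` with `i ^ 2 = j ^ 2 = z`, `i j i⁻¹ = j⁻¹`, acting on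
  `e1`, `e2` by the standard matrices of the quaternion group of `GL(2,3)`.
-/

set_option autoImplicit false
set_option linter.unusedSectionVars false

namespace Cfsg.Agent.H20.LF

open Subgroup Cfsg.Agent.H793.RIM

universe u

variable {S : Type u} [Group S]

theorem exp_three (hS : B34 S) {E : Subgroup S} (hE : Nat.card E = 9) {x : S} (hx : x ∈ E) : x ^ 3 = 1 := by
  by_cases h1 : x = 1
  · rw [h1, one_pow]
  · rw [← hS.order_mem Nat.prime_three (Or.inr ⟨rfl, hE⟩) hx h1]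
    exact pow_orderOf_eq_one x

theorem cent_nine (hS : B34 S) {E : Subgroup S} (hE : Nat.card E = 9) {x y : S} (hx : x ∈ E) (hx1 : x ≠ 1)
    (hy : y * x = x * y) : y ∈ E := by
  have h1 := hS.cent_eq (a := 2) Nat.prime_three (by rw [hE]; norm_num) (by right; right; exact ⟨rfl, rfl⟩) hx hx1
  rw [← h1, mem_centralizer_singleton_iff]
  exact hy

/-- the properties of the complement `Q` of `E` in `N_S(E)` -/
structure IsCompl8 (E Q : Subgroup S) : Prop where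
  card : Nat.card Q = 8
  norm : ∀ q ∈ Q, ∀ x ∈ E, q * x * q⁻¹ ∈ E
  fpf : ∀ q ∈ Q, ∀ x ∈ E, x ≠ 1 → q * x * q⁻¹ = x → q = 1
  trans : ∀ x ∈ E, ∀ y ∈ E, x ≠ 1 → y ≠ 1 → ∃ q ∈ Q, q * x * q⁻¹ = y

theorem exists_Q (hS : B34 S) {E : Subgroup S} (hE : Nat.card E = 9) : ∃ Q : Subgroup S, IsCompl8 E Q := by
  classical
  have hfin := hS.finite
  have hf : Fact (Nat.Prime 2) := ⟨Nat.prime_two⟩
  have hN := hS.norm9 hE
  obtain ⟨P⟩ : Nonempty (Sylow 2 (normalizer (E : Set S))) := inferInstance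
  have hP : Nat.card P = 8 := by
    have h1 := P.card_eq_multiplicity
    rw [hN] at h1
    have h2 : (72 : ℕ).factorization 2 = 3 := by
      rw [show 72 = 2 ^ 3 * 9 by norm_num, Nat.factorization_mul (by norm_num) (by norm_num),
        Nat.Prime.factorization_pow Nat.prime_two]
      simp [Nat.factorization_eq_zero_of_not_dvd]
    rw [h2] at h1
    rw [h1]; norm_num
  let Q : Subgroup S := (P : Subgroup (normalizer (E : Set S))).map (Subgroup.subtype _)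
  have hQ : Nat.card Q = 8 := by
    rw [← hP]
    exact Subgroup.card_map_of_injective (Subgroup.subtype_injective _)
  have hQN : ∀ q ∈ Q, ∀ x ∈ E, q * x * q⁻¹ ∈ E := by
    rintro _ ⟨q, -, rfl⟩ x hx
    exact (mem_normalizer_iff.1 q.2 x).1 hx
  have hfpf : ∀ q ∈ Q, ∀ x ∈ E, x ≠ 1 → q * x * q⁻¹ = x → q = 1 := by
    intro q hq x hx hx1 h
    have h1 : q ∈ E := cent_nine hS hE hx hx1 (by rw [mul_inv_eq_iff_eq_mul] at h; exact h)
    have h2 : orderOf q ∣ 8 := by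
      rw [← hQ]
      have := _root_.orderOf_dvd_natCard (⟨q, hq⟩ : Q)
      rwa [Subgroup.orderOf_mk] at this
    have h3 : orderOf q ∣ 9 := by
      rw [← hE]
      have := _root_.orderOf_dvd_natCard (⟨q, h1⟩ : E)
      rwa [Subgroup.orderOf_mk] at this
    exact orderOf_eq_one_iff.1 (Nat.eq_one_of_dvd_coprimes (by norm_num : Nat.Coprime 8 9) h2 h3)
  refine ⟨Q, hQ, hQN, hfpf, fun x hx y hy hx1 hy1 => ?_⟩
  -- the orbit map is injective, so bijective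
  let f : Q → {e : E // e ≠ 1} := fun q => ⟨⟨q * x * (q : S)⁻¹, hQN q q.2 x hx⟩, fun h => by
    have h1 : (q : S) * x * (q : S)⁻¹ = 1 := congrArg Subtype.val h
    rw [mul_inv_eq_one] at h1
    exact hx1 (mul_eq_left.1 h1)⟩
  have hfi : Function.Injective f := by
    intro q r h
    have h1 : (q : S) * x * (q : S)⁻¹ = r * x * (r : S)⁻¹ := congrArg (fun e => ((e : E) : S)) (congrArg Subtype.val h)
    have h2 : ((r : S)⁻¹ * q) * x * ((r : S)⁻¹ * q)⁻¹ = x := by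
      calc ((r : S)⁻¹ * q) * x * ((r : S)⁻¹ * q)⁻¹ = (r : S)⁻¹ * (q * x * (q : S)⁻¹) * r := by group
        _ = (r : S)⁻¹ * (r * x * (r : S)⁻¹) * r := by rw [h1]
        _ = x := by group
    have h3 := hfpf _ (Q.mul_mem (Q.inv_mem r.2) q.2) x hx hx1 h2
    rw [inv_mul_eq_one] at h3
    exact Subtype.ext h3.symm
  have hcard : Nat.card Q = Nat.card {e : E // e ≠ 1} := by
    have h1 : Nat.card {e : E // e ≠ 1} = Nat.card E - 1 := by
      let _ : Fintype E := Fintype.ofFinite E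
      rw [Nat.card_eq_fintype_card, Nat.card_eq_fintype_card, Fintype.card_subtype_compl, Fintype.card_subtype_eq]
    rw [h1, hE, hQ]
  have hbij := (Nat.bijective_iff_injective_and_card f).2 ⟨hfi, hcard⟩
  obtain ⟨q, hq⟩ := hbij.2 ⟨⟨y, hy⟩, fun h => hy1 (congrArg Subtype.val h)⟩
  exact ⟨q, q.2, congrArg (fun e => ((e : E) : S)) (congrArg Subtype.val hq)⟩

section
variable {E Q : Subgroup S}

/-- elements of `Q` are determined by the image of one element -/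
theorem IsCompl8.ext (hQ : IsCompl8 E Q) {q r : S} (hq : q ∈ Q) (hr : r ∈ Q) {x : S} (hx : x ∈ E) (hx1 : x ≠ 1)
    (h : q * x * q⁻¹ = r * x * r⁻¹) : q = r := by
  have h2 : (r⁻¹ * q) * x * (r⁻¹ * q)⁻¹ = x := by
    calc (r⁻¹ * q) * x * (r⁻¹ * q)⁻¹ = r⁻¹ * (q * x * q⁻¹) * r := by group
      _ = r⁻¹ * (r * x * r⁻¹) * r := by rw [h]
      _ = x := by group
  have h3 := hQ.fpf _ (Q.mul_mem (Q.inv_mem hr) hq) x hx hx1 h2
  rw [inv_mul_eq_one] at h3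
  exact h3.symm

/-- every involution of `Q` inverts `E` -/
theorem IsCompl8.inverts (_hS : B34 S) (hE : Nat.card E = 9) (hQ : IsCompl8 E Q) {z : S} (hz : z ∈ Q) (hz1 : z ≠ 1)
    (hz2 : z ^ 2 = 1) {x : S} (hx : x ∈ E) : z * x * z⁻¹ = x⁻¹ := by
  by_contra hne
  set y := x * (z * x * z⁻¹) with hy
  have hyE : y ∈ E := E.mul_mem hx (hQ.norm z hz x hx)
  have hy1 : y ≠ 1 := fun h => hne (by rw [eq_inv_iff_mul_eq_one, ← comm_nine hE hx (hQ.norm z hz x hx)]; exact h)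
  have h1 : z * y * z⁻¹ = y := by
    have hzz : z * z = 1 := by rw [← pow_two]; exact hz2
    calc z * y * z⁻¹ = (z * x * z⁻¹) * ((z * z) * x * (z * z)⁻¹) := by rw [hy]; group
      _ = (z * x * z⁻¹) * x := by rw [hzz]; group
      _ = y := by rw [hy, comm_nine hE hx (hQ.norm z hz x hx)]
  exact hz1 (hQ.fpf z hz y hyE hy1 h1)

/-- the involution of `Q` -/
theorem IsCompl8.exists_z (hS : B34 S) (hE : Nat.card E = 9) (hQ : IsCompl8 E Q) :
    ∃ z ∈ Q, z ≠ 1 ∧ z ^ 2 = 1 ∧ (∀ x ∈ E, z * x * z⁻¹ = x⁻¹) ∧ (∀ q ∈ Q, q ≠ 1 → q ≠ z → q ^ 2 = z) ∧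
      ∀ q ∈ Q, z * q = q * z := by
  obtain ⟨x, hx, hx1⟩ : ∃ x ∈ E, x ≠ 1 := by
    by_contra hcon
    push Not at hcon
    have : E = ⊥ := (Subgroup.eq_bot_iff_forall _).2 hcon
    rw [this] at hE
    simp at hE
  have hx3 := exp_three hS hE hx
  have hxi : x⁻¹ ≠ 1 := inv_ne_one.2 hx1
  have hxx : x ≠ x⁻¹ := by
    intro h
    rw [eq_inv_iff_mul_eq_one] at h
    apply hx1
    calc x = x ^ 3 * (x * x)⁻¹ := by group
      _ = 1 := by rw [hx3, h]; group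
  obtain ⟨z, hz, hzx⟩ := hQ.trans x hx x⁻¹ (E.inv_mem hx) hx1 hxi
  have hz1 : z ≠ 1 := by
    rintro rfl
    rw [one_mul, inv_one, mul_one] at hzx
    exact hxx hzx
  have hz2 : z ^ 2 = 1 := by
    refine hQ.fpf _ (Q.pow_mem hz 2) x hx hx1 ?_
    calc z ^ 2 * x * (z ^ 2)⁻¹ = z * (z * x * z⁻¹) * z⁻¹ := by simp only [pow_two, mul_inv_rev, mul_assoc]
      _ = z * x⁻¹ * z⁻¹ := by rw [hzx]
      _ = (z * x * z⁻¹)⁻¹ := by group
      _ = x := by rw [hzx, inv_inv]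
  have hinv := fun y (hy : y ∈ E) => hQ.inverts hS hE hz hz1 hz2 hy
  -- other involutions are equal to `z`
  have huniq : ∀ q ∈ Q, q ≠ 1 → q ^ 2 = 1 → q = z := fun q hq hq1 hq2 =>
    hQ.ext hq hz hx hx1 (by rw [hQ.inverts hS hE hq hq1 hq2 hx, hinv x hx])
  refine ⟨z, hz, hz1, hz2, hinv, ?_, ?_⟩
  · intro q hq hq1 hqz
    have h2 : orderOf q ∣ 8 := by
      rw [← hQ.card]
      have := _root_.orderOf_dvd_natCard (⟨q, hq⟩ : Q)
      rwa [Subgroup.orderOf_mk] at this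
    have h3 := hS.ord q
    have h4 : orderOf q ≠ 1 := fun h => hq1 (orderOf_eq_one_iff.1 h)
    have h5 : orderOf q ≠ 2 := fun h => hqz (huniq q hq hq1 (by rw [← h]; exact pow_orderOf_eq_one q))
    have h6 : orderOf q = 4 := by
      rcases h3 with h | h | h | h | h | h
      · exact absurd h h4
      · exact absurd h h5
      · rw [h] at h2; norm_num at h2
      · exact h
      · rw [h] at h2; norm_num at h2
      · rw [h] at h2; norm_num at h2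
    apply huniq _ (Q.pow_mem hq 2)
    · intro h
      have := orderOf_dvd_of_pow_eq_one h
      rw [h6] at this
      norm_num at this
    · rw [← pow_mul, show 2 * 2 = 4 by norm_num, ← h6]
      exact pow_orderOf_eq_one q
  · intro q hq
    have h1 : q * z * q⁻¹ = z := by
      apply huniq _ (Q.mul_mem (Q.mul_mem hq hz) (Q.inv_mem hq))
      · intro h
        rw [mul_inv_eq_one] at h
        exact hz1 (mul_eq_left.1 h)
      · calc (q * z * q⁻¹) ^ 2 = q * z ^ 2 * q⁻¹ := by rw [pow_two, pow_two]; group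
          _ = 1 := by rw [hz2]; group
    rw [mul_inv_eq_iff_eq_mul] at h1
    exact h1.symm

/-- **the normal form of `N_S(E) = E : Q8`** -/
theorem IsCompl8.exists_Q8 (hS : B34 S) (hE : Nat.card E = 9) (hQ : IsCompl8 E Q) {e1 e2 : S} (h1 : e1 ∈ E) (h2 : e2 ∈ E)
    (h11 : e1 ≠ 1) (h12 : e2 ∉ zpowers e1) :
    ∃ i ∈ Q, ∃ j ∈ Q, ∃ z ∈ Q, z ≠ 1 ∧ z ^ 2 = 1 ∧ (∀ x ∈ E, z * x * z⁻¹ = x⁻¹) ∧ i ^ 2 = z ∧ j ^ 2 = z ∧
      i * j * i⁻¹ = j⁻¹ ∧ i * e1 * i⁻¹ = e2 ∧ i * e2 * i⁻¹ = e1⁻¹ ∧ j * e1 * j⁻¹ = e1 * e2 ∧ j * e2 * j⁻¹ = e1 * e2⁻¹ := by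
  obtain ⟨z, hz, hz1, hz2, hinv, hsq, -⟩ := hQ.exists_z hS hE
  have h21 : e2 ≠ 1 := fun h => h12 (by rw [h]; exact one_mem _)
  have hc := comm_nine hE h1 h2
  have h13 := exp_three hS hE h1
  have h23 := exp_three hS hE h2
  have h121 : e1 * e2 ≠ 1 := by
    intro h
    apply h12
    rw [← eq_inv_iff_mul_eq_one] at h
    rw [h, zpowers_inv]
    exact mem_zpowers e2
  obtain ⟨i, hi, hi1⟩ := hQ.trans e1 h1 e2 h2 h11 h21
  obtain ⟨j, hj, hj1⟩ := hQ.trans e1 h1 (e1 * e2) (E.mul_mem h1 h2) h11 h121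
  have hzx : z * e1 * z⁻¹ = e1⁻¹ := hinv e1 h1
  have hi2 : i ^ 2 = z := by
    apply hsq i hi
    · rintro rfl
      rw [one_mul, inv_one, mul_one] at hi1
      exact h12 (hi1 ▸ mem_zpowers e1)
    · rintro rfl
      rw [hzx] at hi1
      exact h12 (hi1 ▸ inv_mem (mem_zpowers e1))
  have hj2 : j ^ 2 = z := by
    apply hsq j hj
    · rintro rfl
      rw [one_mul, inv_one, mul_one] at hj1
      exact h21 (mul_eq_left.1 hj1.symm)
    · rintro rfl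
      rw [hzx] at hj1
      apply h12
      have : e2 = e1⁻¹ * e1⁻¹ := by
        calc e2 = e1⁻¹ * (e1 * e2) := by group
          _ = _ := by rw [← hj1]
      rw [this]
      exact mul_mem (inv_mem (mem_zpowers e1)) (inv_mem (mem_zpowers e1))
  have hi3 : i * e2 * i⁻¹ = e1⁻¹ := by
    rw [← hi1, ← hzx, ← hi2]
    simp only [pow_two, mul_inv_rev, mul_assoc]
  have hj3 : j * (e1 * e2) * j⁻¹ = e1⁻¹ := by
    rw [← hj1, ← hzx, ← hj2]
    simp only [pow_two, mul_inv_rev, mul_assoc]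
  have hj4 : j * e2 * j⁻¹ = e1 * e2⁻¹ := by
    have h3 : j * e2 * j⁻¹ = (j * e1 * j⁻¹)⁻¹ * (j * (e1 * e2) * j⁻¹) := by group
    rw [h3, hj3, hj1]
    have h4 : e1 * e1 = e1⁻¹ := by
      rw [eq_inv_iff_mul_eq_one]
      calc e1 * e1 * e1 = e1 ^ 3 := by rw [pow_succ, pow_two]
        _ = 1 := h13
    have h5 : e1⁻¹ * e1⁻¹ = e1 := by
      rw [← mul_inv_rev, h4, inv_inv]
    calc (e1 * e2)⁻¹ * e1⁻¹ = e2⁻¹ * (e1⁻¹ * e1⁻¹) := by group
      _ = e2⁻¹ * e1 := by rw [h5]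
      _ = e1 * e2⁻¹ := (comm_nine hE h1 (E.inv_mem h2)).symm
  refine ⟨i, hi, j, hj, z, hz, hz1, hz2, hinv, hi2, hj2, ?_, hi1, hi3, hj1, hj4⟩
  -- `i j i⁻¹` and `j⁻¹` agree at `e1`
  have hia : i⁻¹ * e1 * i = e2⁻¹ := by
    have h3 : e1 = (i * e2 * i⁻¹)⁻¹ := by rw [hi3, inv_inv]
    conv_lhs => rw [h3]
    group
  have hja : j⁻¹ * e1 * (j⁻¹)⁻¹ = (e1 * e2)⁻¹ := by
    have hzi : z⁻¹ * e1 * z = e1⁻¹ := by
      have h3 : e1 = (z * e1 * z⁻¹)⁻¹ := by rw [hzx, inv_inv]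
      conv_lhs => rw [h3]
      group
    have h4 : j⁻¹ * e1 * (j⁻¹)⁻¹ = j * (j ^ 2)⁻¹ * e1 * (j ^ 2) * j⁻¹ := by
      simp only [pow_two, mul_inv_rev, inv_inv, mul_assoc, mul_inv_cancel_left, mul_inv_cancel, mul_one]
    rw [h4, hj2]
    calc j * z⁻¹ * e1 * z * j⁻¹ = j * (z⁻¹ * e1 * z) * j⁻¹ := by group
      _ = (j * e1 * j⁻¹)⁻¹ := by rw [hzi]; group
      _ = _ := by rw [hj1]
  refine hQ.ext (Q.mul_mem (Q.mul_mem hi hj) (Q.inv_mem hi)) (Q.inv_mem hj) h1 h11 ?_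
  rw [hja]
  calc i * j * i⁻¹ * e1 * (i * j * i⁻¹)⁻¹ = i * (j * (i⁻¹ * e1 * i) * j⁻¹) * i⁻¹ := by group
    _ = i * (j * e2⁻¹ * j⁻¹) * i⁻¹ := by rw [hia]
    _ = i * (j * e2 * j⁻¹)⁻¹ * i⁻¹ := by group
    _ = i * (e1 * e2⁻¹)⁻¹ * i⁻¹ := by rw [hj4]
    _ = (i * e2 * i⁻¹) * (i * e1 * i⁻¹)⁻¹ := by group
    _ = e1⁻¹ * e2⁻¹ := by rw [hi3, hi1]
    _ = (e1 * e2)⁻¹ := by rw [mul_inv_rev, comm_nine hE (E.inv_mem h1) (E.inv_mem h2)]

end

/-- the same, with the generators: `PSL(3,4)` contains `3^2 : Q8` in normal form -/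
theorem exists_normal_form (hS : B34 S) : ∃ e1 e2 i j z : S, e1 ^ 3 = 1 ∧ e2 ^ 3 = 1 ∧ e1 ≠ 1 ∧ e2 ∉ zpowers e1 ∧
    e1 * e2 = e2 * e1 ∧ z ≠ 1 ∧ z ^ 2 = 1 ∧ z * e1 * z⁻¹ = e1⁻¹ ∧ z * e2 * z⁻¹ = e2⁻¹ ∧ i ^ 2 = z ∧ j ^ 2 = z ∧
      i * j * i⁻¹ = j⁻¹ ∧ i * e1 * i⁻¹ = e2 ∧ i * e2 * i⁻¹ = e1⁻¹ ∧ j * e1 * j⁻¹ = e1 * e2 ∧ j * e2 * j⁻¹ = e1 * e2⁻¹ := by
  have hfin := hS.finite
  have : Fact (Nat.Prime 3) := ⟨Nat.prime_three⟩
  obtain ⟨P⟩ : Nonempty (Sylow 3 S) := inferInstance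
  have hE : Nat.card (P : Subgroup S) = 9 := by
    have h1 := P.card_eq_multiplicity
    rw [hS.card] at h1
    have h2 : (20160 : ℕ).factorization 3 = 2 := by
      rw [show 20160 = 3 ^ 2 * 2240 by norm_num, Nat.factorization_mul (by norm_num) (by norm_num),
        Nat.Prime.factorization_pow Nat.prime_three]
      simp [Nat.factorization_eq_zero_of_not_dvd]
    rw [h2] at h1
    rw [h1]; norm_num
  obtain ⟨e1, h1, h11⟩ : ∃ x ∈ (P : Subgroup S), x ≠ 1 := by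
    by_contra hcon
    push Not at hcon
    have : (P : Subgroup S) = ⊥ := (Subgroup.eq_bot_iff_forall _).2 hcon
    rw [this] at hE
    simp at hE
  obtain ⟨e2, h2, h12⟩ : ∃ x ∈ (P : Subgroup S), x ∉ zpowers e1 := by
    by_contra hcon
    push Not at hcon
    have h3 : Nat.card (P : Subgroup S) ∣ Nat.card (zpowers e1) := Subgroup.card_dvd_of_le hcon
    rw [hE, Nat.card_zpowers, hS.order_mem Nat.prime_three (Or.inr ⟨rfl, hE⟩) h1 h11] at h3
    norm_num at h3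
  obtain ⟨Q, hQ⟩ := exists_Q hS hE
  obtain ⟨i, -, j, -, z, -, h3, h4, h5, h6, h7, h8, h9, h10, h13, h14⟩ := hQ.exists_Q8 hS hE h1 h2 h11 h12
  exact ⟨e1, e2, i, j, z, exp_three hS hE h1, exp_three hS hE h2, h11, h12, comm_nine hE h1 h2, h3, h4, h5 e1 h1, h5 e2 h2,
    h6, h7, h8, h9, h10, h13, h14⟩

end Cfsg.Agent.H20.LF
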